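import Mathlib
import Cfsg.Agent.Lib.Coprime.SZ
import Cfsg.Agent.Lib.Core.Batch
import Cfsg.Agent.Lib.Core.MinNormal
import Cfsg.Agent.Lib.Core.MinNormal2
import Cfsg.Agent.Lib.OddLocal.TypeP

/-!
# Solvable groups in which subgroups of equal order are conjugate

If the `p`-subgroups of equal order of a finite solvable group are conjugate for each prime `p`, and the
Sylow subgroups are cyclic for all primes but one, then any two subgroups of equal order are conjugate.
-/

set_option autoImplicit false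

namespace Cfsg.Agent.Lib.EqOrder

universe u

open Subgroup

section Basic

variable {G : Type u} [Group G]

/-- Conjugation by `g`, as a homomorphism. -/
abbrev cj (g : G) : G →* G := (MulAut.conj g).toMonoidHom

theorem cj_apply (g x : G) : cj g x = g * x * g⁻¹ := rfl

theorem mem_map_cj {H : Subgroup G} {g x : G} : x ∈ H.map (cj g) ↔ g⁻¹ * x * g ∈ H := by
  constructor
  · rintro ⟨y, hy, rfl⟩
    have h : g⁻¹ * (g * y * g⁻¹) * g = y := by group
    rw [cj_apply, h]
    exact hy
  · intro h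
    refine ⟨_, h, ?_⟩
    rw [cj_apply]
    group

theorem map_cj_mul (H : Subgroup G) (a b : G) : H.map (cj (a * b)) = (H.map (cj b)).map (cj a) := by
  ext x
  rw [mem_map_cj, mem_map_cj, mem_map_cj]
  have h : (a * b)⁻¹ * x * (a * b) = b⁻¹ * (a⁻¹ * x * a) * b := by group
  rw [h]

theorem map_cj_one (H : Subgroup G) : H.map (cj (1 : G)) = H := by
  ext x
  rw [mem_map_cj]
  simp

theorem card_map_cj (H : Subgroup G) (g : G) : Nat.card (H.map (cj g)) = Nat.card H :=
  Nat.card_congr (H.equivMapOfInjective _ (MulAut.conj g).injective).toEquiv.symm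

theorem map_cj_normal (N : Subgroup G) [hN : N.Normal] (g : G) : N.map (cj g) = N := by
  ext x
  rw [mem_map_cj]
  constructor
  · intro h
    have := hN.conj_mem _ h g
    have h2 : g * (g⁻¹ * x * g) * g⁻¹ = x := by group
    rwa [h2] at this
  · intro h
    have := hN.conj_mem _ h g⁻¹
    rwa [inv_inv] at this

theorem map_cj_hom {T : Type*} [Group T] (f : G →* T) (X : Subgroup G) (g : G) :
    (X.map (cj g)).map f = (X.map f).map (cj (f g)) := by
  ext x
  rw [mem_map_cj]
  constructor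
  · rintro ⟨y, hy, rfl⟩
    refine ⟨_, mem_map_cj.mp hy, ?_⟩
    simp [map_mul, map_inv]
  · rintro ⟨y, hy, hyx⟩
    refine ⟨g * y * g⁻¹, mem_map_cj.mpr ?_, ?_⟩
    · have h : g⁻¹ * (g * y * g⁻¹) * g = y := by group
      rwa [h]
    · rw [map_mul, map_mul, map_inv, hyx]
      group

theorem map_subtype_cj {A : Subgroup G} (X : Subgroup A) (c : A) :
    (X.map (cj c)).map A.subtype = (X.map A.subtype).map (cj (c : G)) :=
  map_cj_hom A.subtype X c

/-- `|X| = |X N / N| · |X ∩ N|`. -/
theorem card_eq_map_mul_inf [Finite G] (N X : Subgroup G) [N.Normal] :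
    Nat.card X = Nat.card (X.map (QuotientGroup.mk' N)) * Nat.card (X ⊓ N : Subgroup G) := by
  classical
  set φ : X →* G ⧸ N := (QuotientGroup.mk' N).comp X.subtype with hφ
  have hker : φ.ker = N.subgroupOf X := by
    ext x
    simp [hφ, Subgroup.mem_subgroupOf, QuotientGroup.eq_one_iff]
  have hrange : φ.range = X.map (QuotientGroup.mk' N) := by
    rw [hφ, MonoidHom.range_comp, Subgroup.range_subtype]
  have h1 := Subgroup.card_mul_index φ.ker
  rw [Subgroup.index_ker, hrange, hker] at h1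
  have h2 : Nat.card (N.subgroupOf X) = Nat.card (X ⊓ N : Subgroup G) := by
    rw [← Subgroup.inf_subgroupOf_left N X]
    exact Nat.card_congr (Subgroup.subgroupOfEquivOfLe inf_le_left).toEquiv
  rw [h2] at h1
  rw [← h1, mul_comm]

theorem card_subgroupOf_of_le {X A : Subgroup G} (h : X ≤ A) : Nat.card (X.subgroupOf A) = Nat.card X :=
  Nat.card_congr (Subgroup.subgroupOfEquivOfLe h).toEquiv

theorem conj_of_cyclic [Finite G] {p : ℕ} [Fact p.Prime] (hc : ∀ P : Sylow p G, IsCyclic P)
    {X Y : Subgroup G} (hX : IsPGroup p X) (hY : IsPGroup p Y) (h : Nat.card X = Nat.card Y) :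
    ∃ g : G, Y = X.map (cj g) := by
  obtain ⟨P₁, hP₁⟩ := hX.exists_le_sylow
  obtain ⟨P₂, hP₂⟩ := hY.exists_le_sylow
  obtain ⟨g, hg⟩ := MulAction.exists_smul_eq G P₁ P₂
  have hle : X.map (cj g) ≤ P₂ := by
    rw [← hg]
    rintro _ ⟨y, hy, rfl⟩
    rw [Sylow.smul_def]
    exact Subgroup.smul_mem_pointwise_smul _ _ _ (hP₁ hy)
  have hcard : Nat.card (X.map (cj g)) = Nat.card Y := by rw [card_map_cj, h]
  refine ⟨g, le_antisymm ?_ ?_⟩
  · exact Cfsg.Agent.Lib.OddLocal.eq_of_card_eq_of_isCyclic (hc P₂) hP₂ hle hcard.symm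
  · exact Cfsg.Agent.Lib.OddLocal.eq_of_card_eq_of_isCyclic (hc P₂) hle hP₂ hcard

theorem isCyclic_of_pgroup [Finite G] {p : ℕ} [Fact p.Prime] (hc : ∀ P : Sylow p G, IsCyclic P)
    {B : Subgroup G} (hB : IsPGroup p B) : IsCyclic B := by
  obtain ⟨P, hP⟩ := hB.exists_le_sylow
  haveI := hc P
  exact isCyclic_of_injective (Subgroup.inclusion hP) (Subgroup.inclusion_injective hP)

theorem cyclic_sylow_of_surj {A T : Type*} [Group A] [Group T] [Finite A] (f : A →* T)
    (hf : Function.Surjective f) {p : ℕ} [Fact p.Prime] (hc : ∀ P : Sylow p A, IsCyclic P) :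
    ∀ P : Sylow p T, IsCyclic P := by
  intro P
  obtain ⟨S, rfl⟩ := Sylow.mapSurjective_surjective hf p P
  haveI : IsCyclic (S : Subgroup A) := hc S
  rw [Sylow.coe_mapSurjective]
  exact isCyclic_of_surjective (f.subgroupMap (S : Subgroup A)) (f.subgroupMap_surjective _)

/-- The hypothesis on `p`-subgroups. -/
def DP (G : Type u) [Group G] : Prop :=
  ∀ p : ℕ, p.Prime → ∀ H K : Subgroup G, IsPGroup p H → IsPGroup p K → Nat.card H = Nat.card K →
    ∃ g : G, K = H.map (cj g)

theorem dp_of_cyclic [Finite G] (hc : ∀ p : ℕ, p.Prime → ∀ P : Sylow p G, IsCyclic P) : DP G := by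
  intro p hp H K hH hK h
  haveI := Fact.mk hp
  exact conj_of_cyclic (hc p hp) hH hK h

/-- Lifting a `p`-subgroup through a quotient by a normal subgroup of coprime order. -/
theorem exists_lift [Finite G] {N : Subgroup G} [N.Normal] {p q : ℕ} [hp : Fact p.Prime] [hq : Fact q.Prime]
    (hpq : p ≠ q) (hN : IsPGroup q N) {X : Subgroup (G ⧸ N)} (hX : IsPGroup p X) :
    ∃ Y : Subgroup G, IsPGroup p Y ∧ Y.map (QuotientGroup.mk' N) = X ∧ Nat.card Y = Nat.card X := by
  classical
  set f := QuotientGroup.mk' N with hf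
  set A₁ : Subgroup G := X.comap f with hA₁
  obtain ⟨P₁⟩ : Nonempty (Sylow p A₁) := inferInstance
  set Y : Subgroup G := (P₁ : Subgroup A₁).map A₁.subtype with hY
  have hYp : IsPGroup p Y := P₁.isPGroup'.map _
  have hYc : Nat.card Y = Nat.card P₁ :=
    Nat.card_congr ((P₁ : Subgroup A₁).equivMapOfInjective _ A₁.subtype_injective).toEquiv.symm
  have hinf : Y ⊓ N = ⊥ := (IsPGroup.disjoint_of_ne p q hpq Y N hYp hN).eq_bot
  have hYm : Nat.card (Y.map f) = Nat.card Y := Cfsg.Agent.Lib.Coprime.card_map_mk_of_inf_eq_bot hinf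
  have hle : Y.map f ≤ X := by
    rintro _ ⟨y, hy, rfl⟩
    obtain ⟨z, _, rfl⟩ := hy
    exact z.2
  have hcardA : Nat.card A₁ = Nat.card N * Nat.card X := by
    have h1 := Cfsg.Agent.Lib.Core.card_comap_of_surjective f (QuotientGroup.mk'_surjective N) X
    rw [hf, QuotientGroup.ker_mk'] at h1
    exact h1
  obtain ⟨k, hk⟩ := IsPGroup.iff_card.mp hN
  obtain ⟨l, hl⟩ := IsPGroup.iff_card.mp hX
  have hcardP : Nat.card P₁ = Nat.card X := by
    rw [Sylow.card_eq_multiplicity, hcardA, hk, hl,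
      Nat.factorization_mul (pow_ne_zero _ hq.out.ne_zero) (pow_ne_zero _ hp.out.ne_zero),
      Nat.Prime.factorization_pow hq.out, Nat.Prime.factorization_pow hp.out]
    simp [Finsupp.single_apply, hpq.symm]
  refine ⟨Y, hYp, ?_, hYc.trans hcardP⟩
  apply Subgroup.eq_of_le_of_card_ge hle
  rw [hYm, hYc, hcardP]

theorem dp_quotient [Finite G] {N : Subgroup G} [N.Normal] {q : ℕ} (hq : q.Prime) (hN : IsPGroup q N)
    (hD : DP G) : DP (G ⧸ N) := by
  intro p hp A B hA hB hcard
  haveI := Fact.mk hp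
  haveI := Fact.mk hq
  set f := QuotientGroup.mk' N with hf
  have hfs : Function.Surjective f := QuotientGroup.mk'_surjective N
  by_cases hpq : p = q
  · subst hpq
    have hker : IsPGroup p f.ker := by rwa [hf, QuotientGroup.ker_mk']
    have hA₁ := IsPGroup.comap_of_ker_isPGroup hA f hker
    have hB₁ := IsPGroup.comap_of_ker_isPGroup hB f hker
    have hcA := Cfsg.Agent.Lib.Core.card_comap_of_surjective f hfs A
    have hcB := Cfsg.Agent.Lib.Core.card_comap_of_surjective f hfs B
    obtain ⟨g, hg⟩ := hD p hp _ _ hA₁ hB₁ (by rw [hcA, hcB, hcard])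
    refine ⟨f g, ?_⟩
    have := congrArg (Subgroup.map f) hg
    rw [Subgroup.map_comap_eq_self_of_surjective hfs, map_cj_hom,
      Subgroup.map_comap_eq_self_of_surjective hfs] at this
    exact this
  · obtain ⟨A₁, hA₁, hA₂, hA₃⟩ := exists_lift hpq hN hA
    obtain ⟨B₁, hB₁, hB₂, hB₃⟩ := exists_lift hpq hN hB
    obtain ⟨g, hg⟩ := hD p hp _ _ hA₁ hB₁ (by rw [hA₃, hB₃, hcard])
    refine ⟨f g, ?_⟩
    have := congrArg (Subgroup.map f) hg
    rw [map_cj_hom] at this
    rw [← hA₂, ← hB₂]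
    exact this

/-- Conjugacy of complements of `N` in `U N = V N`. -/
theorem conj_compl [Finite G] {N U V : Subgroup G} [hN : N.Normal] (h1 : U ⊓ N = ⊥) (h2 : V ⊓ N = ⊥)
    (h3 : U ⊔ N = V ⊔ N) (hcop : (Nat.card N).Coprime (Nat.card U)) (hsol : Group.IsSolvable N) :
    ∃ m ∈ N, V = U.map (cj m) := by
  set L := U ⊔ N with hL
  have hUL : U ≤ L := le_sup_left
  have hNL : N ≤ L := le_sup_right
  have hVL : V ≤ L := by rw [h3]; exact le_sup_left
  have hcompl : ∀ W : Subgroup G, W ≤ L → W ⊓ N = ⊥ → W ⊔ N = L →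
      IsComplement' (N.subgroupOf L) (W.subgroupOf L) := by
    intro W hW hWN hWs
    apply Cfsg.Agent.Lib.Core.isComplement'_of_inf_sup
    · rw [eq_bot_iff]
      rintro x ⟨hx1, hx2⟩
      have : (x : G) ∈ W ⊓ N := ⟨hx2, hx1⟩
      rw [hWN, Subgroup.mem_bot] at this
      exact Subgroup.mem_bot.mpr (Subtype.ext this)
    · apply Subgroup.map_injective L.subtype_injective
      rw [Subgroup.map_sup, Subgroup.map_subgroupOf_eq_of_le hNL, Subgroup.map_subgroupOf_eq_of_le hW,
        sup_comm, hWs, ← MonoidHom.range_eq_map, Subgroup.range_subtype]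
  have hUc := hcompl U hUL h1 rfl
  have hVc := hcompl V hVL h2 h3.symm
  have hcop' : (Nat.card (N.subgroupOf L)).Coprime (Nat.card (U.subgroupOf L)) := by
    rwa [card_subgroupOf_of_le hNL, card_subgroupOf_of_le hUL]
  have hsol' : Group.IsSolvable (N.subgroupOf L) :=
    solvable_of_solvable_injective (f := (Subgroup.subgroupOfEquivOfLe hNL).toMonoidHom)
      (Subgroup.subgroupOfEquivOfLe hNL).injective
  obtain ⟨m, hm, hVm⟩ := Cfsg.Agent.Lib.Coprime.complement_conj hcop' hUc hVc (Or.inl hsol')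
  refine ⟨m, Subgroup.mem_subgroupOf.mp hm, ?_⟩
  have h4 := congrArg (Subgroup.map L.subtype) hVm
  rw [Subgroup.map_subgroupOf_eq_of_le hVL] at h4
  rw [h4]
  have h5 := map_subtype_cj (U.subgroupOf L) m
  rw [Subgroup.map_subgroupOf_eq_of_le hUL] at h5
  exact h5

theorem exists_compl_in [Finite G] {Q X : Subgroup G} (hQX : Q ≤ X) [hn : (Q.subgroupOf X).Normal]
    (hcop : (Nat.card Q).Coprime (Q.relIndex X)) : ∃ U : Subgroup G, U ≤ X ∧ U ⊓ Q = ⊥ ∧ U ⊔ Q = X := by
  have hcop' : (Nat.card (Q.subgroupOf X)).Coprime (Q.subgroupOf X).index := by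
    rw [card_subgroupOf_of_le hQX]
    exact hcop
  obtain ⟨U₀, hU₀⟩ := Subgroup.exists_right_complement'_of_coprime hcop'
  refine ⟨U₀.map X.subtype, Subgroup.map_subtype_le _, ?_, ?_⟩
  · rw [eq_bot_iff]
    rintro _ ⟨⟨u, hu, rfl⟩, hq⟩
    have h1 : u ∈ Q.subgroupOf X := hq
    have := hU₀.disjoint.le_bot ⟨h1, hu⟩
    rw [Subgroup.mem_bot] at this
    rw [this]
    simp
  · have h := hU₀.sup_eq_top
    have h2 := congrArg (Subgroup.map X.subtype) h
    rw [Subgroup.map_sup, Subgroup.map_subgroupOf_eq_of_le hQX, ← MonoidHom.range_eq_map,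
      Subgroup.range_subtype, sup_comm] at h2
    exact h2

/-- Two subgroups with the same image modulo a normal Hall subgroup `N` and the same normal intersection
with `N` are conjugate under `N`. -/
theorem same_image_conj [Finite G] {N Q X Y : Subgroup G} [hN : N.Normal] [hQ : Q.Normal]
    (hX : X ⊓ N = Q) (hY : Y ⊓ N = Q) (hs : X ⊔ N = Y ⊔ N) (hcop : (Nat.card N).Coprime N.index)
    (hsol : Group.IsSolvable N) : ∃ m ∈ N, Y = X.map (cj m) := by
  have hQN : Q ≤ N := hX ▸ inf_le_right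
  have hQX : Q ≤ X := hX ▸ inf_le_left
  have hQY : Q ≤ Y := hY ▸ inf_le_left
  have hcQ : ∀ W : Subgroup G, W ⊓ N = Q → (Nat.card Q).Coprime (Q.relIndex W) := by
    intro W hW
    rw [← hW, Subgroup.inf_relIndex_left, hW]
    exact Nat.Coprime.coprime_dvd_left (Subgroup.card_dvd_of_le hQN)
      (Nat.Coprime.coprime_dvd_right (Subgroup.relIndex_dvd_index_of_normal N W) hcop)
  obtain ⟨U, hUX, hUQ, hUs⟩ := exists_compl_in hQX (hcQ X hX)
  obtain ⟨V, hVY, hVQ, hVs⟩ := exists_compl_in hQY (hcQ Y hY)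
  have hinf : ∀ W Z : Subgroup G, W ≤ Z → W ⊓ Q = ⊥ → Z ⊓ N = Q → W ⊓ N = ⊥ := by
    intro W Z hWZ hWQ hZ
    rw [eq_bot_iff]
    rintro x ⟨hx1, hx2⟩
    have : x ∈ Z ⊓ N := ⟨hWZ hx1, hx2⟩
    rw [hZ] at this
    rw [← hWQ]
    exact ⟨hx1, this⟩
  have hsup : ∀ W Z : Subgroup G, W ≤ Z → W ⊔ Q = Z → Q ≤ N → W ⊔ N = Z ⊔ N := by
    intro W Z hWZ hWs hQN'
    apply le_antisymm
    · exact sup_le_sup_right hWZ N
    · refine sup_le ?_ le_sup_right
      rw [← hWs]
      exact sup_le le_sup_left (hQN'.trans le_sup_right)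
  have hU1 := hinf U X hUX hUQ hX
  have hV1 := hinf V Y hVY hVQ hY
  have hcard : (Nat.card N).Coprime (Nat.card U) := by
    have h1 : Nat.card (U.map (QuotientGroup.mk' N)) = Nat.card U :=
      Cfsg.Agent.Lib.Coprime.card_map_mk_of_inf_eq_bot hU1
    rw [← h1]
    refine Nat.Coprime.coprime_dvd_right ?_ hcop
    rw [Subgroup.index_eq_card]
    exact Subgroup.card_subgroup_dvd_card _
  obtain ⟨m, hm, hVm⟩ := conj_compl hU1 hV1
    ((hsup U X hUX hUs hQN).trans (hs.trans (hsup V Y hVY hVs hQN).symm)) hcard hsol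
  refine ⟨m, hm, ?_⟩
  rw [← hVs, ← hUs, Subgroup.map_sup, map_cj_normal Q m, hVm]

/-- A minimal normal `q`-subgroup with cyclic Sylow `q`-subgroups lies in every subgroup of order divisible
by `q`. -/
theorem le_of_dvd [Finite G] {N X : Subgroup G} [hN : N.Normal] {q : ℕ} (hq : q.Prime) (hNq : IsPGroup q N)
    (hN1 : N ≠ ⊥) (hmin : ∀ M : Subgroup G, M.Normal → M ≤ N → M = ⊥ ∨ M = N)
    (hc : ∀ P : Sylow q G, IsCyclic P) (hd : q ∣ Nat.card X) : N ≤ X := by
  classical
  haveI := Fact.mk hq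
  obtain ⟨P, hP⟩ := hNq.exists_le_sylow
  have hcycP := hc P
  -- an element of order `q` in `N`
  have hdN : q ∣ Nat.card N := by
    rcases hNq.card_eq_or_dvd with h | h
    · exact absurd ((Subgroup.card_eq_one).mp h) hN1
    · exact h
  obtain ⟨y, hy⟩ := exists_prime_orderOf_dvd_card' q hdN
  obtain ⟨x, hx⟩ := exists_prime_orderOf_dvd_card' q hd
  have hy' : orderOf (y : G) = q := by rw [Subgroup.orderOf_coe, hy]
  have hx' : orderOf (x : G) = q := by rw [Subgroup.orderOf_coe, hx]
  have hcz : ∀ z : G, orderOf z = q → IsPGroup q (zpowers z) := by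
    intro z hz
    apply IsPGroup.of_card (n := 1)
    rw [Nat.card_zpowers, hz, pow_one]
  obtain ⟨P', hP'⟩ := (hcz x hx').exists_le_sylow
  obtain ⟨g, hg⟩ := MulAction.exists_smul_eq G P' P
  have hxP : (zpowers (x : G)).map (cj g) ≤ P := by
    rw [← hg]
    rintro _ ⟨w, hw, rfl⟩
    rw [Sylow.smul_def]
    exact Subgroup.smul_mem_pointwise_smul _ _ _ (hP' hw)
  have hyP : zpowers (y : G) ≤ P := by
    rw [Subgroup.zpowers_le]
    exact hP y.2
  have hcard1 : Nat.card (zpowers (y : G)) = Nat.card ((zpowers (x : G)).map (cj g)) := by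
    rw [card_map_cj, Nat.card_zpowers, Nat.card_zpowers, hy', hx']
  have hmem : (y : G) ∈ (zpowers (x : G)).map (cj g) :=
    (Cfsg.Agent.Lib.OddLocal.eq_of_card_eq_of_isCyclic hcycP hyP hxP hcard1)
      (Subgroup.mem_zpowers _)
  rw [mem_map_cj] at hmem
  set z : G := g⁻¹ * y * g with hz
  have hzX : z ∈ X := by
    obtain ⟨k, hk⟩ := Subgroup.mem_zpowers_iff.mp hmem
    rw [← hk]
    exact X.zpow_mem x.2 k
  have hzN : z ∈ N := by
    have := hN.conj_mem _ y.2 g⁻¹
    rwa [inv_inv] at this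
  have hz1 : z ≠ 1 := by
    intro h
    have h2 : (y : G) = 1 := by
      have : (y : G) = g * z * g⁻¹ := by rw [hz]; group
      rw [this, h]; group
    rw [h2, orderOf_one] at hy'
    exact hq.one_lt.ne hy'
  have hzzN : zpowers z ≤ N := by rwa [Subgroup.zpowers_le]
  have hMn : (zpowers z).Normal := by
    constructor
    intro w hw c
    have hle1 : (zpowers z).map (cj c) ≤ P := by
      rintro _ ⟨v, hv, rfl⟩
      exact hP (hN.conj_mem _ (hzzN hv) c)
    have h5 := Cfsg.Agent.Lib.OddLocal.eq_of_card_eq_of_isCyclic hcycP hle1 (hzzN.trans hP)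
      (card_map_cj _ c)
    exact h5 ⟨w, hw, rfl⟩
  rcases hmin _ hMn hzzN with h | h
  · exact absurd (Subgroup.zpowers_eq_bot.mp h) hz1
  · rw [← h, Subgroup.zpowers_le]
    exact hzX

theorem inf_eq_bot_of_not_dvd [Finite G] {N X : Subgroup G} {q : ℕ} (hNq : IsPGroup q N) [Fact q.Prime]
    (hd : ¬ q ∣ Nat.card X) : X ⊓ N = ⊥ := by
  have hp : IsPGroup q (X ⊓ N : Subgroup G) := hNq.to_le inf_le_right
  rcases hp.card_eq_or_dvd with h | h
  · exact (Subgroup.card_eq_one).mp h
  · exact absurd (h.trans (Subgroup.card_dvd_of_le inf_le_left)) hd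

/-- Reduction modulo a minimal normal `q`-subgroup with cyclic Sylow `q`-subgroups. -/
theorem step_b [Finite G] {N : Subgroup G} [hN : N.Normal] {q : ℕ} (hq : q.Prime) (hNq : IsPGroup q N)
    (hN1 : N ≠ ⊥) (hmin : ∀ M : Subgroup G, M.Normal → M ≤ N → M = ⊥ ∨ M = N)
    (hc : ∀ P : Sylow q G, IsCyclic P) (hsol : Group.IsSolvable N)
    (hconj : ∀ A B : Subgroup (G ⧸ N), Nat.card A = Nat.card B → ∃ t, B = A.map (cj t))
    {H K : Subgroup G} (hcard : Nat.card H = Nat.card K) : ∃ g : G, K = H.map (cj g) := by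
  haveI := Fact.mk hq
  set f := QuotientGroup.mk' N with hf
  have hfs : Function.Surjective f := QuotientGroup.mk'_surjective N
  have hfk : f.ker = N := QuotientGroup.ker_mk' N
  have hcH := card_eq_map_mul_inf N H
  have hcK := card_eq_map_mul_inf N K
  by_cases hd : q ∣ Nat.card H
  · have hNH : N ≤ H := le_of_dvd hq hNq hN1 hmin hc hd
    have hNK : N ≤ K := le_of_dvd hq hNq hN1 hmin hc (hcard ▸ hd)
    rw [inf_eq_right.mpr hNH] at hcH
    rw [inf_eq_right.mpr hNK] at hcK
    have hcm : Nat.card (H.map f) = Nat.card (K.map f) :=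
      Nat.eq_of_mul_eq_mul_right (Nat.card_pos (α := N)) (hcH.symm.trans (hcard.trans hcK))
    obtain ⟨t, ht⟩ := hconj _ _ hcm
    obtain ⟨g, rfl⟩ := hfs t
    refine ⟨g, ?_⟩
    have h1 : (H.map (cj g)).map f = K.map f := by rw [map_cj_hom, ht]
    have h2 : N ≤ H.map (cj g) := by
      rw [← map_cj_normal N g]
      exact Subgroup.map_mono hNH
    have h3 := congrArg (Subgroup.comap f) h1
    rw [Subgroup.comap_map_eq, Subgroup.comap_map_eq, hfk, sup_eq_left.mpr hNK, sup_eq_left.mpr h2] at h3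
    exact h3.symm
  · have hd' : ¬ q ∣ Nat.card K := hcard ▸ hd
    have hH0 := inf_eq_bot_of_not_dvd hNq hd
    have hK0 := inf_eq_bot_of_not_dvd hNq hd'
    have hcm : Nat.card (H.map f) = Nat.card (K.map f) := by
      rw [Cfsg.Agent.Lib.Coprime.card_map_mk_of_inf_eq_bot hH0,
        Cfsg.Agent.Lib.Coprime.card_map_mk_of_inf_eq_bot hK0, hcard]
    obtain ⟨t, ht⟩ := hconj _ _ hcm
    obtain ⟨g, rfl⟩ := hfs t
    set H' := H.map (cj g) with hH'
    have h1 : H'.map f = K.map f := by rw [hH', map_cj_hom, ht]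
    have hH'0 : H' ⊓ N = ⊥ := by
      apply inf_eq_bot_of_not_dvd hNq
      rwa [hH', card_map_cj]
    have h3 := congrArg (Subgroup.comap f) h1
    rw [Subgroup.comap_map_eq, Subgroup.comap_map_eq, hfk] at h3
    have hcop : (Nat.card N).Coprime (Nat.card H') := by
      obtain ⟨k, hk⟩ := IsPGroup.iff_card.mp hNq
      rw [hk]
      apply Nat.Coprime.pow_left
      rw [hH', card_map_cj]
      exact (Nat.Prime.coprime_iff_not_dvd hq).mpr hd
    obtain ⟨m, _, hm⟩ := conj_compl hH'0 hK0 h3 hcop hsol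
    refine ⟨m * g, ?_⟩
    rw [map_cj_mul, hm]

theorem le_of_eq_map_cj {M R : Subgroup G} [hR : R.Normal] {g : G} (h : R = M.map (cj g)) : M ≤ R := by
  intro x hx
  have h1 : cj g x ∈ R := by
    rw [h]
    exact ⟨x, hx, rfl⟩
  have h2 := hR.conj_mem _ h1 g⁻¹
  have h3 : g⁻¹ * cj g x * g⁻¹⁻¹ = x := by
    rw [cj_apply]
    group
  rwa [h3] at h2

theorem card_inf_hall [Finite G] {R : Subgroup G} [R.Normal] {r : ℕ} [hr : Fact r.Prime] (hRr : IsPGroup r R)
    (hR1 : R ≠ ⊥) (hcop : (Nat.card R).Coprime R.index) (X : Subgroup G) :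
    Nat.card (X ⊓ R : Subgroup G) = r ^ (Nat.card X).factorization r := by
  have hc := card_eq_map_mul_inf R X
  have hr1 : r ∣ Nat.card R := by
    rcases hRr.card_eq_or_dvd with h | h
    · exact absurd ((Subgroup.card_eq_one).mp h) hR1
    · exact h
  have hm : ¬ r ∣ Nat.card (X.map (QuotientGroup.mk' R)) := by
    intro h
    have h2 : Nat.card (X.map (QuotientGroup.mk' R)) ∣ R.index := by
      rw [Subgroup.index_eq_card]
      exact Subgroup.card_subgroup_dvd_card _
    exact (Nat.Prime.coprime_iff_not_dvd hr.out).mp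
      (Nat.Coprime.coprime_dvd_left hr1 hcop) (h.trans h2)
  obtain ⟨k, hk⟩ := IsPGroup.iff_card.mp (hRr.to_le (inf_le_right : X ⊓ R ≤ R))
  have hm0 : Nat.card (X.map (QuotientGroup.mk' R)) ≠ 0 := Nat.card_pos.ne'
  have h0 := Nat.factorization_eq_zero_of_not_dvd hm
  have hfac : (Nat.card X).factorization r = k := by
    rw [hc, hk, Nat.factorization_mul hm0 (pow_ne_zero _ hr.out.ne_zero),
      Nat.Prime.factorization_pow hr.out, Finsupp.add_apply, h0, Finsupp.single_eq_same, zero_add]
  rw [hfac, hk]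

/-- The case of a normal Sylow subgroup `R` of `G`. -/
theorem step_e [Finite G] {R : Subgroup G} [hR : R.Normal] (hcop : (Nat.card R).Coprime R.index)
    (hsol : Group.IsSolvable G)
    (hconj : ∀ (A : Subgroup G) (X Y : Subgroup (A ⧸ R.subgroupOf A)), Nat.card X = Nat.card Y →
      ∃ t, Y = X.map (cj t))
    {H K : Subgroup G} (hHK : H ⊓ R = K ⊓ R) (hcard : Nat.card H = Nat.card K) :
    ∃ g : G, K = H.map (cj g) := by
  set Q : Subgroup G := H ⊓ R with hQ
  set A : Subgroup G := Subgroup.normalizer (Q : Set G) with hA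
  haveI := hsol
  have hnorm : ∀ W : Subgroup G, W ⊓ R = Q → W ≤ A := by
    intro W hW w hw
    rw [hA, Subgroup.mem_normalizer_iff]
    intro q
    rw [← hW]
    constructor
    · rintro ⟨h1, h2⟩
      exact ⟨W.mul_mem (W.mul_mem hw h1) (W.inv_mem hw), hR.conj_mem _ h2 w⟩
    · rintro ⟨h1, h2⟩
      have h3 : q = w⁻¹ * (w * q * w⁻¹) * w := by group
      rw [h3]
      refine ⟨W.mul_mem (W.mul_mem (W.inv_mem hw) h1) hw, ?_⟩
      have := hR.conj_mem _ h2 w⁻¹
      rwa [inv_inv] at this
  have hHA : H ≤ A := hnorm H hQ.symm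
  have hKA : K ≤ A := hnorm K hHK.symm
  set N : Subgroup A := R.subgroupOf A with hN
  set Q' : Subgroup A := Q.subgroupOf A with hQ'
  haveI hQ'n : Q'.Normal := Subgroup.normal_in_normalizer
  set X : Subgroup A := H.subgroupOf A with hX
  set Y : Subgroup A := K.subgroupOf A with hY
  have hXN : X ⊓ N = Q' := by
    ext x
    exact Iff.rfl
  have hYN : Y ⊓ N = Q' := by
    ext x
    change ((x : G) ∈ K ⊓ R) ↔ (x : G) ∈ Q
    rw [hHK]
  set f := QuotientGroup.mk' N with hf
  have hfs : Function.Surjective f := QuotientGroup.mk'_surjective N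
  have hfk : f.ker = N := QuotientGroup.ker_mk' N
  have hcX := card_eq_map_mul_inf N X
  have hcY := card_eq_map_mul_inf N Y
  rw [hXN] at hcX
  rw [hYN] at hcY
  have hcXY : Nat.card X = Nat.card Y := by
    rw [hX, hY, card_subgroupOf_of_le hHA, card_subgroupOf_of_le hKA, hcard]
  have hcm : Nat.card (X.map f) = Nat.card (Y.map f) :=
    Nat.eq_of_mul_eq_mul_right (Nat.card_pos (α := Q')) (hcX.symm.trans (hcXY.trans hcY))
  obtain ⟨t, ht⟩ := hconj A _ _ hcm
  obtain ⟨a, rfl⟩ := hfs t
  set X₂ : Subgroup A := X.map (cj a) with hX₂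
  have h1 : X₂.map f = Y.map f := by rw [hX₂, map_cj_hom, ht]
  have h3 := congrArg (Subgroup.comap f) h1
  rw [Subgroup.comap_map_eq, Subgroup.comap_map_eq, hfk] at h3
  have hX₂N : X₂ ⊓ N = Q' := by
    rw [hX₂, ← map_cj_normal Q' a, ← hXN, Subgroup.map_inf _ _ _ (MulAut.conj a).injective,
      map_cj_normal N a]
  have hNcop : (Nat.card N).Coprime N.index := by
    refine Nat.Coprime.coprime_dvd_left (?_ : Nat.card N ∣ Nat.card R)
      (Nat.Coprime.coprime_dvd_right (Subgroup.relIndex_dvd_index_of_normal R A) hcop)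
    rw [hN, ← Subgroup.inf_subgroupOf_left R A, card_subgroupOf_of_le inf_le_left]
    exact Subgroup.card_dvd_of_le inf_le_right
  haveI hAsol : Group.IsSolvable A :=
    solvable_of_solvable_injective (f := A.subtype) A.subtype_injective
  have hNsol : Group.IsSolvable N :=
    solvable_of_solvable_injective (f := N.subtype) N.subtype_injective
  obtain ⟨m, _, hm⟩ := same_image_conj hX₂N hYN h3 hNcop hNsol
  refine ⟨(m * a : A), ?_⟩
  have h5 := congrArg (Subgroup.map A.subtype) hm
  rw [hY, Subgroup.map_subgroupOf_eq_of_le hKA, hX₂, ← map_cj_mul, map_subtype_cj,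
    hX, Subgroup.map_subgroupOf_eq_of_le hHA] at h5
  exact h5

end Basic

/-- The main induction. -/
theorem main_aux (n : ℕ) : ∀ (G : Type u) [Group G] [Finite G] [Group.IsSolvable G], Nat.card G = n →
    DP G → ∀ r : ℕ, (∀ p : ℕ, p.Prime → p ≠ r → ∀ P : Sylow p G, IsCyclic P) →
    ∀ H K : Subgroup G, Nat.card H = Nat.card K → ∃ g : G, K = H.map (cj g) := by
  induction n using Nat.strong_induction_on with
  | _ n ih =>
  intro G _ _ _ hn hD r hcyc H K hcard
  by_cases hnt : Nontrivial G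
  swap
  · rw [not_nontrivial_iff_subsingleton] at hnt
    refine ⟨1, ?_⟩
    rw [map_cj_one]
    exact Subsingleton.elim _ _
  by_cases hq : ∃ (q : ℕ) (N : Subgroup G), q.Prime ∧ q ≠ r ∧ N.Normal ∧ N ≠ ⊥ ∧ IsPGroup q N
  · obtain ⟨q, N₁, hqp, hqr, hN₁, hN₁1, hN₁q⟩ := hq
    obtain ⟨N, hNn, hN1, hNle, hmin⟩ := Cfsg.Agent.Lib.Core.exists_minimal_normal_le hN₁ hN₁1
    have hNq : IsPGroup q N := hN₁q.to_le hNle
    haveI := hNn
    haveI := Fact.mk hqp
    refine step_b hqp hNq hN1 hmin (hcyc q hqp hqr)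
      (solvable_of_solvable_injective (f := N.subtype) N.subtype_injective) ?_ hcard
    intro A B hAB
    have hlt : Nat.card (G ⧸ N) < n := by
      rw [← hn]
      have h1 := N.card_mul_index
      rw [Subgroup.index_eq_card] at h1
      have h2 : 1 < Nat.card N := by
        rcases hNq.card_eq_or_dvd with h | h
        · exact absurd ((Subgroup.card_eq_one).mp h) hN1
        · exact lt_of_lt_of_le hqp.one_lt (Nat.le_of_dvd Nat.card_pos h)
      rw [← h1]
      exact lt_mul_of_one_lt_left Nat.card_pos h2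
    refine ih _ hlt (G ⧸ N) rfl (dp_quotient hqp hNq hD) r ?_ A B hAB
    intro p hp hpr
    haveI := Fact.mk hp
    exact cyclic_sylow_of_surj _ (QuotientGroup.mk'_surjective N) (hcyc p hp hpr)
  · -- every minimal normal subgroup is an `r`-group
    have hno : ∀ (q : ℕ) (N : Subgroup G), q.Prime → q ≠ r → N.Normal → IsPGroup q N → N = ⊥ := by
      intro q N hq1 hq2 hq3 hq4
      by_contra hq5
      exact hq ⟨q, N, hq1, hq2, hq3, hq5, hq4⟩
    -- a prime for a minimal normal subgroup contained in `K₀`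
    have hminr : ∀ K₀ : Subgroup G, K₀.Normal → K₀ ≠ ⊥ →
        ∃ N : Subgroup G, N.Normal ∧ N ≠ ⊥ ∧ N ≤ K₀ ∧ r.Prime ∧ IsPGroup r N := by
      intro K₀ h1 h2
      obtain ⟨N, hNn, hN1, hNle, hmin⟩ := Cfsg.Agent.Lib.Core.exists_minimal_normal_le h1 h2
      haveI := hNn
      obtain ⟨_, p, hp, hpe⟩ := Cfsg.Agent.Lib.Core.minimal_normal_elementary N hN1 hmin
      have hNp : IsPGroup p N := by
        intro x
        refine ⟨1, ?_⟩
        apply Subtype.ext
        simpa using hpe x x.2
      by_cases hpr : p = r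
      · subst hpr
        exact ⟨N, hNn, hN1, hNle, hp, hNp⟩
      · exact absurd (hno p N hp hpr hNn hNp) hN1
    obtain ⟨N₀, hN₀n, hN₀1, _, hrp, hN₀r⟩ := hminr ⊤ inferInstance top_ne_bot
    haveI : Fact r.Prime := ⟨hrp⟩
    set R : Subgroup G := pCore r G with hR
    haveI hRn : R.Normal := inferInstance
    have hRr : IsPGroup r R := Cfsg.Agent.Lib.Core.pCore_isPGroup r G
    have hR1 : R ≠ ⊥ := by
      intro h
      apply hN₀1
      rw [eq_bot_iff, ← h]
      exact Cfsg.Agent.Lib.Core.le_pCore hN₀n hN₀r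
    have hcore : pPrimeCore r G = ⊥ := by
      by_contra hne
      obtain ⟨N, hNn, hN1, hNle, _, hNr⟩ := hminr _ inferInstance hne
      have hd : Nat.card N ∣ Nat.card (pPrimeCore r G) := Subgroup.card_dvd_of_le hNle
      have hco := Cfsg.Agent.Lib.Core.pPrimeCore_coprime r G
      rcases hNr.card_eq_or_dvd with h | h
      · exact hN1 ((Subgroup.card_eq_one).mp h)
      · exact (Nat.Prime.coprime_iff_not_dvd hrp).mp hco.symm (h.trans hd)
    have hcent : Subgroup.centralizer (R : Set G) ≤ R := Cfsg.Agent.Lib.Core.centralizer_pCore_le r hcore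
    obtain ⟨a, ha⟩ := IsPGroup.iff_card.mp hRr
    -- all `r`-elements lie in `R`
    have hel : ∀ x : G, IsPGroup r (zpowers x) → x ∈ R := by
      intro x hx
      obtain ⟨b, hb⟩ := IsPGroup.iff_card.mp hx
      by_cases hba : b ≤ a
      · obtain ⟨M, hM, hxM⟩ := Sylow.exists_subgroup_card_pow_prime_le (G := G) r
          (by rw [← ha]; exact Subgroup.card_subgroup_dvd_card R) (zpowers x) hb hba
        have hMr : IsPGroup r M := IsPGroup.of_card hM
        obtain ⟨g, hg⟩ := hD r hrp M R hMr hRr (by rw [hM, ha])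
        exact le_of_eq_map_cj hg (hxM (Subgroup.mem_zpowers x))
      · have hba' : a < b := not_le.mp hba
        have hox : orderOf x = r ^ b := by rw [← Nat.card_zpowers, hb]
        set y : G := x ^ (r ^ (b - a)) with hy
        have hoy : orderOf y = r ^ a := by
          rw [hy, orderOf_pow_of_dvd (pow_ne_zero _ hrp.ne_zero)
            (by rw [hox]; exact pow_dvd_pow _ (Nat.sub_le _ _)), hox]
          rw [Nat.pow_div (Nat.sub_le _ _) hrp.pos]
          congr 1
          omega
        have hMc : Nat.card (zpowers y) = r ^ a := by rw [Nat.card_zpowers, hoy]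
        have hMr : IsPGroup r (zpowers y) := IsPGroup.of_card hMc
        obtain ⟨g, hg⟩ := hD r hrp _ R hMr hRr (by rw [hMc, ha])
        have hle := le_of_eq_map_cj hg
        have heq : zpowers y = R := Subgroup.eq_of_le_of_card_ge hle (by rw [hMc, ha])
        apply hcent
        rw [Subgroup.mem_centralizer_iff]
        intro w hw
        have hw' : w ∈ zpowers y := by rw [heq]; exact hw
        obtain ⟨k, rfl⟩ := Subgroup.mem_zpowers_iff.mp hw'
        rw [hy]
        exact (((Commute.refl x).pow_right _).zpow_right _).symm.eq.symm ▸ rfl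
    have hRS : ∀ B : Subgroup G, IsPGroup r B → B ≤ R := by
      intro B hB x hx
      apply hel
      exact hB.to_le ((Subgroup.zpowers_le).mpr hx)
    obtain ⟨P⟩ : Nonempty (Sylow r G) := inferInstance
    have hPR : (P : Subgroup G) = R :=
      le_antisymm (hRS _ P.isPGroup') (Cfsg.Agent.Lib.Core.pCore_le_sylow P)
    have hcopR : (Nat.card R).Coprime R.index := by
      rw [← hPR]
      exact P.card_coprime_index
    -- reduce to `H ∩ R = K ∩ R`
    have hcQ : Nat.card (H ⊓ R : Subgroup G) = Nat.card (K ⊓ R : Subgroup G) := by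
      rw [card_inf_hall hRr hR1 hcopR, card_inf_hall hRr hR1 hcopR, hcard]
    obtain ⟨g, hg⟩ := hD r hrp _ _ (hRr.to_le (inf_le_right : H ⊓ R ≤ R))
      (hRr.to_le (inf_le_right : K ⊓ R ≤ R)) hcQ
    set H₁ : Subgroup G := H.map (cj g) with hH₁
    have hH₁R : H₁ ⊓ R = K ⊓ R := by
      rw [hg, hH₁, Subgroup.map_inf _ _ _ (MulAut.conj g).injective, map_cj_normal R g]
    have hH₁c : Nat.card H₁ = Nat.card K := by rw [hH₁, card_map_cj, hcard]
    have hG1 : Nat.card G = Nat.card R * R.index := (Subgroup.card_mul_index R).symm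
    have hRgt : 1 < Nat.card R := by
      rcases hRr.card_eq_or_dvd with h | h
      · exact absurd ((Subgroup.card_eq_one).mp h) hR1
      · exact lt_of_lt_of_le hrp.one_lt (Nat.le_of_dvd Nat.card_pos h)
    have hconjT : ∀ (A : Subgroup G) (X Y : Subgroup (A ⧸ R.subgroupOf A)), Nat.card X = Nat.card Y →
        ∃ t, Y = X.map (cj t) := by
      intro A X Y hXY
      haveI hAsol : Group.IsSolvable A :=
        solvable_of_solvable_injective (f := A.subtype) A.subtype_injective
      have hTcard : Nat.card (A ⧸ R.subgroupOf A) ∣ R.index := by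
        rw [← Subgroup.index_eq_card]
        exact Subgroup.relIndex_dvd_index_of_normal R A
      have hlt : Nat.card (A ⧸ R.subgroupOf A) < n := by
        rw [← hn, hG1]
        have hidx : 0 < R.index := Nat.pos_of_ne_zero Subgroup.index_ne_zero_of_finite
        have := Nat.le_of_dvd hidx hTcard
        have h3 : R.index < Nat.card R * R.index :=
          lt_mul_of_one_lt_left hidx hRgt
        omega
      have hTcyc : ∀ p : ℕ, p.Prime → ∀ S : Sylow p (A ⧸ R.subgroupOf A), IsCyclic S := by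
        intro p hp S
        haveI := Fact.mk hp
        by_cases hpr : p = r
        · subst hpr
          have hS1 : Nat.card S = 1 := by
            rcases S.isPGroup'.card_eq_or_dvd with h | h
            · exact h
            · exfalso
              have h1 : p ∣ Nat.card R := by
                rcases hRr.card_eq_or_dvd with h2 | h2
                · exact absurd ((Subgroup.card_eq_one).mp h2) hR1
                · exact h2
              have h4 := h.trans ((Subgroup.card_subgroup_dvd_card _).trans hTcard)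
              exact (Nat.Prime.coprime_iff_not_dvd hp).mp
                (Nat.Coprime.coprime_dvd_left h1 hcopR) h4
          haveI : Subsingleton S := (Nat.card_eq_one_iff_unique.mp hS1).1
          exact isCyclic_of_subsingleton
        · refine cyclic_sylow_of_surj _ (QuotientGroup.mk'_surjective (R.subgroupOf A)) ?_ S
          intro B
          have hB : IsPGroup p ((B : Subgroup A).map A.subtype) := B.isPGroup'.map _
          haveI := isCyclic_of_pgroup (hcyc p hp hpr) hB
          exact isCyclic_of_injective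
            ((B : Subgroup A).equivMapOfInjective A.subtype A.subtype_injective).toMonoidHom
            ((B : Subgroup A).equivMapOfInjective A.subtype A.subtype_injective).injective
      exact ih _ hlt (A ⧸ R.subgroupOf A) rfl (dp_of_cyclic hTcyc) r (fun p hp _ => hTcyc p hp) X Y hXY
    obtain ⟨g', hg'⟩ := step_e hcopR inferInstance hconjT hH₁R hH₁c
    refine ⟨g' * g, ?_⟩
    rw [map_cj_mul, ← hH₁, hg']

/-- **Equal order implies conjugate.** -/
theorem main {G : Type u} [Group G] [Finite G] [Group.IsSolvable G] (hD : DP G) (r : ℕ)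
    (hcyc : ∀ p : ℕ, p.Prime → p ≠ r → ∀ P : Sylow p G, IsCyclic P) (H K : Subgroup G)
    (hcard : Nat.card H = Nat.card K) : ∃ g : G, K = H.map (cj g) :=
  main_aux _ G rfl hD r hcyc H K hcard

end Cfsg.Agent.Lib.EqOrder
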